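import Cfsg.Agent.H858.MLoc
import Cfsg.Agent.H440.J4P.Cent

/-!
# Two sextets refining a trio determine it

`line_unique`: an element `m` of `M24` such that `phi m Z (phi m)⁻¹` and `Z` share two nontrivial
elements is in the stabilizer `K` of the trio (`Z`: the group of order 8 of the seven sextets
refining the trio).
-/

set_option autoImplicit false

open Cfsg

namespace Cfsg.Agent.H825.JM

open Cfsg.Agent.Lib Cfsg.Agent.Lib.F2MatGroup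
open Cfsg.Agent.J4.Rep112 Cfsg.Agent.J4.Pres Cfsg.Agent.J4.M24Hom Cfsg.Agent.J4.Nodes
open Cfsg.Agent.J4.Beta Cfsg.Agent.J4.Classes Cfsg.Agent.J4.ClassesData
open Cfsg.Agent.J4.NonConj Cfsg.Agent.J4.NonConjData Cfsg.Agent.J4.ClassesAbs
open Cfsg.Agent.H858.VK Cfsg.Agent.H858.Data Cfsg.Agent.H858.Elem Cfsg.Agent.H858.Pent
open Cfsg.Agent.H858.Loc7 Cfsg.Agent.H858.Loc5 Cfsg.Agent.H858.NormL Cfsg.Agent.StdL2.G23Aut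

/-- the group `Spor.J4` -/
local notation "𝒢" => Cfsg.Spor.J4

/-- 90 words fixing the sextet `V 165` and with different images of the sextet `V 873` -/
def wl : List (List ℕ) := [
  [], [0], [2, 0, 1], [0, 2, 0, 1], [2, 0, 1, 0], [0, 2, 0, 1, 0],
  [1, 0, 1, 0, 1, 0, 1, 0, 2, 0, 1, 0, 1, 0, 2, 0, 2, 0, 2, 0, 2],
  [0, 1, 0, 1, 0, 1, 0, 1, 0, 2, 0, 1, 0, 1, 0, 2, 0, 2, 0, 2, 0, 2],
  [1, 0, 1, 0, 1, 0, 1, 0, 2, 0, 1, 0, 1, 0, 2, 0, 2, 0, 2, 0, 2, 0],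
  [0, 1, 0, 1, 0, 1, 0, 1, 0, 2, 0, 1, 0, 1, 0, 2, 0, 2, 0, 2, 0, 2, 0],
  [1, 0, 2, 0, 2, 0, 1, 0, 1, 0, 2, 0, 1, 0, 2, 0, 2, 0, 1, 0, 1, 0, 2],
  [2, 0, 2, 0, 1, 0, 1, 0, 1, 0, 2, 0, 1, 0, 1, 0, 2, 0, 2, 0, 2, 0, 2],
  [0, 2, 0, 2, 0, 1, 0, 1, 0, 1, 0, 2, 0, 1, 0, 1, 0, 2, 0, 2, 0, 2, 0, 2],
  [1, 0, 2, 0, 2, 0, 1, 0, 1, 0, 2, 0, 1, 0, 2, 0, 2, 0, 1, 0, 1, 0, 2, 0],
  [2, 0, 2, 0, 1, 0, 1, 0, 1, 0, 2, 0, 1, 0, 1, 0, 2, 0, 2, 0, 2, 0, 2, 0],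
  [0, 2, 0, 2, 0, 1, 0, 1, 0, 1, 0, 2, 0, 1, 0, 1, 0, 2, 0, 2, 0, 2, 0, 2, 0],
  [1, 0, 1, 0, 1, 0, 1, 0, 2, 0, 1, 0, 1, 0, 2, 0, 2, 0, 2, 0, 2, 0, 2, 0, 1],
  [1, 0, 2, 0, 2, 0, 1, 0, 1, 0, 2, 0, 1, 0, 2, 0, 2, 0, 1, 0, 1, 0, 1, 0, 1],
  [2, 0, 1, 0, 1, 0, 1, 0, 1, 0, 1, 0, 2, 0, 1, 0, 1, 0, 2, 0, 2, 0, 2, 0, 2],
  [0, 1, 0, 2, 0, 2, 0, 1, 0, 1, 0, 2, 0, 1, 0, 2, 0, 2, 0, 1, 0, 1, 0, 1, 0, 1],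
  [0, 2, 0, 1, 0, 1, 0, 1, 0, 1, 0, 1, 0, 2, 0, 1, 0, 1, 0, 2, 0, 2, 0, 2, 0, 2],
  [1, 0, 1, 0, 1, 0, 1, 0, 2, 0, 1, 0, 1, 0, 2, 0, 2, 0, 2, 0, 2, 0, 2, 0, 1, 0],
  [1, 0, 1, 0, 1, 0, 1, 0, 2, 0, 2, 0, 1, 0, 2, 0, 2, 0, 2, 0, 2, 0, 2, 0, 1, 0],
  [1, 0, 2, 0, 2, 0, 1, 0, 1, 0, 2, 0, 1, 0, 2, 0, 2, 0, 1, 0, 1, 0, 1, 0, 1, 0],
  [2, 0, 1, 0, 1, 0, 1, 0, 1, 0, 1, 0, 2, 0, 1, 0, 1, 0, 2, 0, 2, 0, 2, 0, 2, 0],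
  [2, 0, 2, 0, 2, 0, 2, 0, 1, 0, 1, 0, 2, 0, 1, 0, 2, 0, 2, 0, 1, 0, 1, 0, 2, 0],
  [0, 1, 0, 1, 0, 1, 0, 1, 0, 2, 0, 1, 0, 1, 0, 2, 0, 2, 0, 2, 0, 2, 0, 2, 0, 1, 0],
  [0, 1, 0, 1, 0, 1, 0, 1, 0, 2, 0, 2, 0, 1, 0, 2, 0, 2, 0, 2, 0, 2, 0, 2, 0, 1, 0],
  [0, 1, 0, 2, 0, 2, 0, 1, 0, 1, 0, 2, 0, 1, 0, 2, 0, 2, 0, 1, 0, 1, 0, 1, 0, 1, 0],
  [0, 2, 0, 2, 0, 2, 0, 2, 0, 1, 0, 1, 0, 2, 0, 1, 0, 2, 0, 2, 0, 1, 0, 1, 0, 2, 0],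
  [1, 0, 1, 0, 1, 0, 2, 0, 1, 0, 1, 0, 2, 0, 2, 0, 2, 0, 1, 0, 1, 0, 2, 0, 1, 0, 2],
  [1, 0, 1, 0, 2, 0, 1, 0, 1, 0, 1, 0, 2, 0, 1, 0, 1, 0, 1, 0, 1, 0, 1, 0, 2, 0, 2],
  [1, 0, 1, 0, 2, 0, 2, 0, 2, 0, 2, 0, 2, 0, 1, 0, 2, 0, 2, 0, 2, 0, 1, 0, 2, 0, 2],
  [1, 0, 2, 0, 1, 0, 1, 0, 2, 0, 1, 0, 2, 0, 1, 0, 2, 0, 1, 0, 1, 0, 2, 0, 1, 0, 2],
  [1, 0, 2, 0, 1, 0, 1, 0, 2, 0, 2, 0, 1, 0, 2, 0, 1, 0, 1, 0, 2, 0, 2, 0, 1, 0, 2],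
  [1, 0, 2, 0, 1, 0, 2, 0, 2, 0, 1, 0, 2, 0, 1, 0, 2, 0, 1, 0, 2, 0, 2, 0, 1, 0, 2],
  [2, 0, 1, 0, 2, 0, 2, 0, 1, 0, 1, 0, 1, 0, 2, 0, 1, 0, 1, 0, 2, 0, 2, 0, 2, 0, 2],
  [2, 0, 2, 0, 1, 0, 1, 0, 1, 0, 2, 0, 1, 0, 1, 0, 2, 0, 2, 0, 2, 0, 2, 0, 2, 0, 1],
  [2, 0, 2, 0, 2, 0, 2, 0, 1, 0, 1, 0, 2, 0, 1, 0, 2, 0, 2, 0, 1, 0, 1, 0, 1, 0, 1],
  [0, 1, 0, 1, 0, 2, 0, 2, 0, 2, 0, 2, 0, 2, 0, 1, 0, 2, 0, 2, 0, 2, 0, 1, 0, 2, 0, 2],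
  [0, 1, 0, 2, 0, 1, 0, 1, 0, 2, 0, 2, 0, 1, 0, 2, 0, 1, 0, 1, 0, 2, 0, 2, 0, 1, 0, 2],
  [0, 2, 0, 1, 0, 2, 0, 2, 0, 1, 0, 1, 0, 1, 0, 2, 0, 1, 0, 1, 0, 2, 0, 2, 0, 2, 0, 2],
  [0, 2, 0, 2, 0, 1, 0, 1, 0, 1, 0, 2, 0, 1, 0, 1, 0, 2, 0, 2, 0, 2, 0, 2, 0, 2, 0, 1],
  [1, 0, 1, 0, 2, 0, 2, 0, 1, 0, 1, 0, 1, 0, 2, 0, 2, 0, 2, 0, 1, 0, 1, 0, 2, 0, 2, 0],
  [1, 0, 1, 0, 2, 0, 2, 0, 2, 0, 2, 0, 2, 0, 1, 0, 2, 0, 2, 0, 2, 0, 1, 0, 2, 0, 2, 0],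
  [1, 0, 2, 0, 1, 0, 1, 0, 2, 0, 1, 0, 1, 0, 1, 0, 2, 0, 2, 0, 1, 0, 1, 0, 2, 0, 2, 0],
  [1, 0, 2, 0, 1, 0, 1, 0, 2, 0, 1, 0, 2, 0, 1, 0, 2, 0, 1, 0, 1, 0, 2, 0, 1, 0, 2, 0],
  [1, 0, 2, 0, 1, 0, 1, 0, 2, 0, 2, 0, 1, 0, 2, 0, 1, 0, 1, 0, 2, 0, 2, 0, 1, 0, 2, 0],
  [1, 0, 2, 0, 1, 0, 2, 0, 2, 0, 1, 0, 2, 0, 1, 0, 2, 0, 1, 0, 2, 0, 2, 0, 1, 0, 2, 0],
  [2, 0, 1, 0, 2, 0, 2, 0, 1, 0, 1, 0, 1, 0, 2, 0, 1, 0, 1, 0, 2, 0, 2, 0, 2, 0, 2, 0],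
  [2, 0, 2, 0, 1, 0, 1, 0, 1, 0, 2, 0, 1, 0, 1, 0, 2, 0, 2, 0, 2, 0, 2, 0, 2, 0, 1, 0],
  [2, 0, 2, 0, 1, 0, 1, 0, 1, 0, 2, 0, 2, 0, 1, 0, 2, 0, 2, 0, 2, 0, 2, 0, 2, 0, 1, 0],
  [0, 1, 0, 1, 0, 2, 0, 2, 0, 1, 0, 1, 0, 1, 0, 2, 0, 2, 0, 2, 0, 1, 0, 1, 0, 2, 0, 2, 0],
  [0, 2, 0, 2, 0, 1, 0, 1, 0, 1, 0, 2, 0, 1, 0, 1, 0, 2, 0, 2, 0, 2, 0, 2, 0, 2, 0, 1, 0],
  [1, 0, 1, 0, 2, 0, 2, 0, 1, 0, 1, 0, 1, 0, 2, 0, 2, 0, 2, 0, 1, 0, 1, 0, 2, 0, 1, 0, 1],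
  [1, 0, 1, 0, 2, 0, 2, 0, 1, 0, 1, 0, 2, 0, 2, 0, 2, 0, 1, 0, 2, 0, 2, 0, 1, 0, 1, 0, 1],
  [2, 0, 1, 0, 1, 0, 2, 0, 2, 0, 1, 0, 1, 0, 2, 0, 1, 0, 2, 0, 2, 0, 1, 0, 1, 0, 1, 0, 1],
  [2, 0, 1, 0, 2, 0, 1, 0, 1, 0, 1, 0, 1, 0, 1, 0, 2, 0, 1, 0, 1, 0, 2, 0, 2, 0, 2, 0, 2],
  [2, 0, 2, 0, 1, 0, 2, 0, 2, 0, 2, 0, 2, 0, 2, 0, 1, 0, 2, 0, 2, 0, 2, 0, 1, 0, 2, 0, 2],
  [2, 0, 2, 0, 2, 0, 1, 0, 1, 0, 2, 0, 1, 0, 2, 0, 1, 0, 2, 0, 1, 0, 1, 0, 2, 0, 1, 0, 2],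
  [0, 2, 0, 1, 0, 2, 0, 1, 0, 1, 0, 1, 0, 1, 0, 1, 0, 2, 0, 1, 0, 1, 0, 2, 0, 2, 0, 2, 0, 2],
  [1, 0, 1, 0, 2, 0, 2, 0, 1, 0, 1, 0, 1, 0, 2, 0, 2, 0, 2, 0, 1, 0, 1, 0, 2, 0, 1, 0, 1, 0],
  [1, 0, 1, 0, 2, 0, 2, 0, 1, 0, 1, 0, 2, 0, 2, 0, 2, 0, 1, 0, 2, 0, 2, 0, 1, 0, 1, 0, 1, 0],
  [1, 0, 2, 0, 1, 0, 1, 0, 2, 0, 2, 0, 1, 0, 2, 0, 1, 0, 1, 0, 2, 0, 2, 0, 1, 0, 1, 0, 1, 0],
  [2, 0, 1, 0, 1, 0, 1, 0, 1, 0, 1, 0, 2, 0, 1, 0, 1, 0, 2, 0, 2, 0, 2, 0, 2, 0, 2, 0, 1, 0],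
  [2, 0, 1, 0, 1, 0, 1, 0, 1, 0, 1, 0, 2, 0, 2, 0, 1, 0, 2, 0, 2, 0, 2, 0, 2, 0, 2, 0, 1, 0],
  [2, 0, 2, 0, 1, 0, 2, 0, 2, 0, 1, 0, 1, 0, 1, 0, 2, 0, 2, 0, 2, 0, 1, 0, 1, 0, 2, 0, 2, 0],
  [2, 0, 2, 0, 1, 0, 2, 0, 2, 0, 2, 0, 2, 0, 2, 0, 1, 0, 2, 0, 2, 0, 2, 0, 1, 0, 2, 0, 2, 0],
  [2, 0, 2, 0, 2, 0, 1, 0, 1, 0, 2, 0, 1, 0, 1, 0, 1, 0, 2, 0, 2, 0, 1, 0, 1, 0, 2, 0, 2, 0],
  [2, 0, 2, 0, 2, 0, 1, 0, 1, 0, 2, 0, 2, 0, 1, 0, 2, 0, 1, 0, 1, 0, 2, 0, 2, 0, 1, 0, 2, 0],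
  [0, 1, 0, 1, 0, 2, 0, 2, 0, 1, 0, 1, 0, 2, 0, 2, 0, 2, 0, 1, 0, 2, 0, 2, 0, 1, 0, 1, 0, 1, 0],
  [0, 2, 0, 1, 0, 1, 0, 1, 0, 1, 0, 1, 0, 2, 0, 1, 0, 1, 0, 2, 0, 2, 0, 2, 0, 2, 0, 2, 0, 1, 0],
  [0, 2, 0, 1, 0, 1, 0, 1, 0, 1, 0, 1, 0, 2, 0, 2, 0, 1, 0, 2, 0, 2, 0, 2, 0, 2, 0, 2, 0, 1, 0],
  [0, 2, 0, 2, 0, 1, 0, 2, 0, 2, 0, 1, 0, 1, 0, 1, 0, 2, 0, 2, 0, 2, 0, 1, 0, 1, 0, 2, 0, 2, 0],
  [1, 0, 2, 0, 1, 0, 2, 0, 1, 0, 2, 0, 1, 0, 1, 0, 2, 0, 1, 0, 1, 0, 1, 0, 2, 0, 1, 0, 1, 0, 1],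
  [1, 0, 2, 0, 1, 0, 2, 0, 1, 0, 2, 0, 1, 0, 2, 0, 2, 0, 2, 0, 2, 0, 2, 0, 2, 0, 2, 0, 1, 0, 2],
  [1, 0, 2, 0, 2, 0, 1, 0, 2, 0, 2, 0, 2, 0, 2, 0, 2, 0, 2, 0, 2, 0, 1, 0, 1, 0, 1, 0, 1, 0, 2],
  [1, 0, 2, 0, 2, 0, 2, 0, 1, 0, 1, 0, 2, 0, 2, 0, 1, 0, 2, 0, 1, 0, 2, 0, 1, 0, 1, 0, 1, 0, 1],
  [1, 0, 1, 0, 2, 0, 1, 0, 1, 0, 2, 0, 2, 0, 2, 0, 1, 0, 1, 0, 1, 0, 2, 0, 2, 0, 1, 0, 2, 0, 2,
  0],
  [1, 0, 2, 0, 1, 0, 2, 0, 1, 0, 2, 0, 1, 0, 2, 0, 2, 0, 2, 0, 2, 0, 2, 0, 2, 0, 2, 0, 1, 0, 2,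
  0],
  [1, 0, 2, 0, 2, 0, 2, 0, 1, 0, 1, 0, 2, 0, 2, 0, 1, 0, 2, 0, 1, 0, 2, 0, 1, 0, 1, 0, 1, 0, 1,
  0],
  [2, 0, 2, 0, 2, 0, 1, 0, 1, 0, 2, 0, 2, 0, 1, 0, 2, 0, 1, 0, 1, 0, 2, 0, 2, 0, 1, 0, 1, 0, 1,
  0],
  [0, 1, 0, 2, 0, 1, 0, 2, 0, 1, 0, 2, 0, 1, 0, 2, 0, 2, 0, 2, 0, 2, 0, 2, 0, 2, 0, 2, 0, 1, 0,
  2, 0],
  [0, 2, 0, 2, 0, 2, 0, 1, 0, 1, 0, 2, 0, 2, 0, 1, 0, 2, 0, 1, 0, 1, 0, 2, 0, 2, 0, 1, 0, 1, 0,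
  1, 0],
  [2, 0, 2, 0, 2, 0, 1, 0, 2, 0, 1, 0, 2, 0, 1, 0, 2, 0, 2, 0, 2, 0, 2, 0, 2, 0, 2, 0, 2, 0, 1,
  0, 2],
  [2, 0, 2, 0, 2, 0, 2, 0, 1, 0, 2, 0, 2, 0, 2, 0, 2, 0, 2, 0, 2, 0, 2, 0, 1, 0, 1, 0, 1, 0, 1,
  0, 2],
  [2, 0, 2, 0, 2, 0, 2, 0, 2, 0, 1, 0, 1, 0, 2, 0, 2, 0, 1, 0, 2, 0, 1, 0, 2, 0, 1, 0, 1, 0, 1,
  0, 1],
  [0, 2, 0, 2, 0, 2, 0, 1, 0, 2, 0, 1, 0, 2, 0, 1, 0, 2, 0, 2, 0, 2, 0, 2, 0, 2, 0, 2, 0, 2, 0,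
  1, 0, 2],
  [2, 0, 2, 0, 2, 0, 1, 0, 2, 0, 1, 0, 2, 0, 1, 0, 2, 0, 2, 0, 2, 0, 2, 0, 2, 0, 2, 0, 2, 0, 1,
  0, 2, 0],
  [2, 0, 2, 0, 2, 0, 2, 0, 2, 0, 1, 0, 1, 0, 2, 0, 2, 0, 1, 0, 2, 0, 1, 0, 2, 0, 1, 0, 1, 0, 1,
  0, 1, 0]] 

theorem wl_length : wl.length = 90 := by decide +kernel

theorem wl_fix : (wl.all fun w => Nat.beq (actG Ax Ay w 165) 165) = true := by decide +kernel

theorem wl_nodup : (wl.map fun w => actG Ax Ay w 873).Nodup := by decide +kernel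

/-! ### General lemmas -/

section general

variable {H : Type*} [Group H] [Finite H]

theorem le_index (A : Subgroup H) {n : ℕ} (g : Fin n → H)
    (h : ∀ i j, (g i)⁻¹ * g j ∈ A → i = j) : n ≤ A.index := by
  have hinj : Function.Injective (fun i => (g i : H ⧸ A)) := by
    intro i j hij
    exact h i j (QuotientGroup.eq.1 hij)
  have h1 := Nat.card_le_card_of_injective _ hinj
  rwa [Nat.card_fin] at h1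

omit [Finite H] in
theorem index_le (A : Subgroup H) {T : Type*} [Finite T] (f : H → T)
    (h : ∀ a b, f a = f b → a⁻¹ * b ∈ A) : A.index ≤ Nat.card T := by
  have hinj : Function.Injective (fun q : H ⧸ A => f q.out) := by
    intro p q hpq
    have h1 := h _ _ hpq
    rw [← QuotientGroup.out_eq' p, ← QuotientGroup.out_eq' q]
    exact QuotientGroup.eq.2 h1
  exact Nat.card_le_card_of_injective _ hinj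

end general

/-! ### Stabilizers -/

theorem conj_word (w : List ℕ) (v : ℕ) :
    phi (wordG w) * V v * (phi (wordG w))⁻¹ = V (actG Ax Ay w v) := by
  apply rho_injective
  rw [map_mul, map_mul, map_inv, rho_V, rho_V]
  exact act_word w v

/-- the stabilizer of a vector -/
noncomputable def St (v : ℕ) : Subgroup M24 :=
  (Subgroup.centralizer ({V v} : Set 𝒢)).comap phi

theorem mem_St {v : ℕ} {m : M24} : m ∈ St v ↔ phi m * V v * (phi m)⁻¹ = V v := by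
  unfold St
  rw [Subgroup.mem_comap, Subgroup.mem_centralizer_singleton_iff, mul_inv_eq_iff_eq_mul]

/-- two elements mapping `V v` to the same element -/
theorem mem_St_of {v : ℕ} {m n : M24}
    (h : phi m * V v * (phi m)⁻¹ = phi n * V v * (phi n)⁻¹) : m⁻¹ * n ∈ St v := by
  rw [mem_St, map_mul, map_inv]
  have e : (phi m)⁻¹ * phi n * V v * ((phi m)⁻¹ * phi n)⁻¹ =
      (phi m)⁻¹ * (phi n * V v * (phi n)⁻¹) * phi m := by group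
  rw [e, ← h]
  group

theorem eq_of_mem_St {v : ℕ} {m n : M24} (h : m⁻¹ * n ∈ St v) :
    phi m * V v * (phi m)⁻¹ = phi n * V v * (phi n)⁻¹ := by
  rw [mem_St, map_mul, map_inv] at h
  conv_lhs => rw [← h]
  group

theorem pos_arr : ((List.range 1771).all fun i =>
    Nat.beq (tget pos 11 (tget arr 11 i)) i) = true := by decide +kernel

theorem arr_lt : ((List.range 1771).all fun i => Nat.blt (tget arr 11 i) 2048) = true := by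
  decide +kernel

/-- the orbit of the sextets -/
theorem exists_arr (i : ℕ) (hi : i < 1771) :
    ∃ m : M24, V (tget arr 11 i) = phi m * V 165 * (phi m)⁻¹ := by
  have h0 : ∀ i < 1771, ∃ m : M24, V (tget arr 11 i) = phi m * V 1024 * (phi m)⁻¹ := by
    intro i hi
    obtain ⟨m, hm⟩ := Cfsg.Agent.J4.Invol.conj_arr hyp i (by omega)
    rw [if_pos hi] at hm
    refine ⟨m, rho_injective ?_⟩
    rw [map_mul, map_mul, map_inv, rho_V, rho_V]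
    exact hm
  have h1 : tget arr 11 (tget pos 11 165) = 165 := by decide +kernel
  have h2 : tget pos 11 165 < 1771 := by decide +kernel
  obtain ⟨n, hn⟩ := h0 _ h2
  rw [h1] at hn
  obtain ⟨m, hm⟩ := h0 i hi
  refine ⟨m * n⁻¹, ?_⟩
  rw [hm, hn, map_mul, map_inv]
  group

theorem index_St : 1771 ≤ (St 165).index := by
  have hsel : ∀ i : Fin 1771, ∃ m : M24, V (tget arr 11 i) = phi m * V 165 * (phi m)⁻¹ :=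
    fun i => exists_arr i i.2
  choose g hg using hsel
  refine le_index _ g fun i j hij => ?_
  have h1 := eq_of_mem_St hij
  rw [← hg, ← hg] at h1
  have hlt := arr_lt
  rw [List.all_eq_true] at hlt
  have h2 : ∀ i : Fin 1771, tget arr 11 i < 2048 := fun i => by
    have h3 := hlt i (List.mem_range.2 i.2)
    rwa [Nat.blt_eq] at h3
  have h3 := V_inj (h2 i) (h2 j) h1
  have hp := pos_arr
  rw [List.all_eq_true] at hp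
  have h4 := hp i (List.mem_range.2 i.2)
  have h5 := hp j (List.mem_range.2 j.2)
  rw [Nat.beq_eq] at h4 h5
  exact Fin.ext (by rw [← h4, ← h5, h3])

theorem card_St_le : Nat.card (St 165) ≤ 138240 := by
  have h1 := (St 165).card_mul_index
  rw [Cfsg.Agent.H858.FixJ4.card_M24] at h1
  have h2 := index_St
  have h3 := Nat.mul_le_mul_left (Nat.card (St 165)) h2
  rw [h1] at h3
  generalize Nat.card (St 165) = n at h3 ⊢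
  omega

theorem fix_of_mem {w : List ℕ} (hw : w ∈ wl) : wordG w ∈ St 165 := by
  have h := wl_fix
  rw [List.all_eq_true] at h
  have h1 := h w hw
  rw [Nat.beq_eq] at h1
  rw [mem_St, conj_word, h1]

theorem card_St2_le : Nat.card (St 165 ⊓ St 873 : Subgroup M24) ≤ 1536 := by
  set A : Subgroup (St 165) := (St 873).subgroupOf (St 165) with hA
  have h1 : 90 ≤ A.index := by
    have hlen := wl_length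
    refine le_index A (fun i : Fin 90 => (⟨wordG (wl[(i : ℕ)]'(by rw [hlen]; exact i.2)),
      fix_of_mem (List.getElem_mem _)⟩ : St 165)) fun i j hij => ?_
    rw [hA, Subgroup.mem_subgroupOf] at hij
    have h2 := eq_of_mem_St (v := 873) hij
    rw [conj_word, conj_word] at h2
    have hlt : ∀ w : List ℕ, actG Ax Ay w 873 < 2048 := by
      intro w
      have h4 : ∀ w : List ℕ, ∀ v < 2048, actG Ax Ay w v < 2048 := by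
        intro w
        induction w with
        | nil => exact fun v hv => hv
        | cons a w ih =>
          intro v hv
          have hx : ∀ a ∈ Ax, a < 2048 := by decide
          have hy : ∀ a ∈ Ay, a < 2048 := by decide
          show (bif Nat.beq a 0 then lin Ax (actG Ax Ay w v) else
            bif Nat.beq a 1 then lin Ay (lin Ay (actG Ax Ay w v)) else lin Ay (actG Ax Ay w v))
              < 2048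
          rcases Nat.beq a 0 with _ | _
          · rcases Nat.beq a 1 with _ | _
            · exact lin_lt hy _
            · exact lin_lt hy _
          · exact lin_lt hx _
      exact h4 w 873 (by norm_num)
    have h3 := V_inj (hlt _) (hlt _) h2
    have h5 := wl_nodup
    rw [List.nodup_iff_injective_getElem] at h5
    have h6 : (⟨i, by rw [List.length_map, hlen]; exact i.2⟩ :
        Fin (wl.map fun w => actG Ax Ay w 873).length) =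
        ⟨j, by rw [List.length_map, hlen]; exact j.2⟩ := by
      apply h5
      simp only [List.getElem_map]
      exact h3
    exact Fin.ext (congrArg (fun z : Fin _ => (z : ℕ)) h6)
  have h2 := A.card_mul_index
  have h3 : Nat.card A = Nat.card (St 165 ⊓ St 873 : Subgroup M24) := by
    rw [hA, card_inf_eq, inf_comm]
  have h4 := card_St_le
  rw [← h2, h3] at h4
  have h5 := Nat.mul_le_mul_left (Nat.card (St 165 ⊓ St 873 : Subgroup M24)) h1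
  omega

theorem K_NZ {k : M24} (hk : k ∈ Cfsg.Agent.J4.TrioAll.K) :
    phi k ∈ Subgroup.normalizer (Z : Set 𝒢) := NL_le_NZ (K_NL hk)

theorem St2_le : St 165 ⊓ St 873 ≤ Cfsg.Agent.J4.TrioAll.K := by
  set K := Cfsg.Agent.J4.TrioAll.K with hK
  set A : Subgroup K := (St 165 ⊓ St 873).subgroupOf K with hA
  have hm : ∀ (k : K) (v : Z), phi k * (v : 𝒢) * (phi k)⁻¹ ∈ Z := fun k v =>
    (Subgroup.mem_normalizer_iff.1 (K_NZ k.2) v).1 v.2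
  have hZ1 : V 165 ∈ Z := V_mem_Z 1 (by decide)
  have hZ2 : V 873 ∈ Z := V_mem_Z 2 (by decide)
  have h1 : A.index ≤ 64 := by
    have h2 := index_le A (T := Z × Z) (fun k => (⟨_, hm k ⟨_, hZ1⟩⟩, ⟨_, hm k ⟨_, hZ2⟩⟩)) (by
      intro a b hab
      rw [Prod.mk.injEq, Subtype.mk.injEq, Subtype.mk.injEq] at hab
      rw [hA, Subgroup.mem_subgroupOf]
      exact Subgroup.mem_inf.2 ⟨mem_St_of hab.1, mem_St_of hab.2⟩)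
    rw [Nat.card_prod, card_Z] at h2
    exact h2
  have h2 := A.card_mul_index
  have h3 : Nat.card A = Nat.card ((St 165 ⊓ St 873) ⊓ K : Subgroup M24) := card_inf_eq _ _
  rw [card_K, h3] at h2
  have h4 := Nat.mul_le_mul_left (Nat.card ((St 165 ⊓ St 873) ⊓ K : Subgroup M24)) h1
  have h5 := card_St2_le
  have h6 : Nat.card ((St 165 ⊓ St 873) ⊓ K : Subgroup M24) ∣
      Nat.card (St 165 ⊓ St 873 : Subgroup M24) := Subgroup.card_dvd_of_le inf_le_left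
  have h7 : Nat.card ((St 165 ⊓ St 873) ⊓ K : Subgroup M24) =
      Nat.card (St 165 ⊓ St 873 : Subgroup M24) := by
    obtain ⟨c, hc⟩ := h6
    have h8 : 0 < Nat.card (St 165 ⊓ St 873 : Subgroup M24) := Nat.card_pos
    have h9 : c < 2 := by
      by_contra h
      have h10 := Nat.mul_le_mul_left (Nat.card ((St 165 ⊓ St 873) ⊓ K : Subgroup M24))
        (not_lt.1 h)
      omega
    interval_cases c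
    · omega
    · omega
  have h8 : (St 165 ⊓ St 873) ⊓ K = St 165 ⊓ St 873 :=
    Subgroup.eq_of_le_of_card_ge inf_le_left h7.ge
  rw [← h8]
  exact inf_le_right

/-! ### Transitivity on pairs -/

theorem full_J : Full J Z := by
  intro φ
  obtain ⟨x, hx⟩ := πJ_surjective φ
  refine ⟨x, x.2, fun v => ?_⟩
  rw [← hx]
  rfl

theorem J_le_X0 : J ≤ X0 := by
  unfold J
  rw [Subgroup.closure_le]
  have hK : ∀ k ∈ Cfsg.Agent.J4.TrioAll.K, phi k ∈ X0 := fun k hk =>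
    (le_sup_right : _ ≤ X0) ⟨k, hk, rfl⟩
  rintro _ (rfl | rfl)
  · exact hK _ (kw_mem _)
  · exact X0.mul_mem ((le_sup_left : _ ≤ X0) (V_mem _)) (hK _ (kw_mem _))

theorem Z_le_EJ : Z ≤ Cfsg.Agent.J4.Invol.EJ := span_le fun a _ => V_mem a

theorem EJ_comm' {a b : 𝒢} (ha : a ∈ Cfsg.Agent.J4.Invol.EJ) (hb : b ∈ Cfsg.Agent.J4.Invol.EJ) :
    a * b = b * a := Cfsg.Agent.J4.Invol.EJ_comm rho_injective a b ha hb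

theorem exists_K {u v : 𝒢} (hu : u ∈ Z) (hv : v ∈ Z) (hu1 : u ≠ 1) (hv1 : v ≠ 1) (huv : u ≠ v) :
    ∃ k ∈ Cfsg.Agent.J4.TrioAll.K, phi k * V 165 * (phi k)⁻¹ = u ∧
      phi k * V 873 * (phi k)⁻¹ = v := by
  have hZ1 : V 165 ∈ Z := V_mem_Z 1 (by decide)
  have hZ2 : V 873 ∈ Z := V_mem_Z 2 (by decide)
  have hne : ∀ a b : ℕ, a < 2048 → b < 2048 → a ≠ b → V a ≠ V b := fun a b ha hb hab h =>
    hab (V_inj ha hb h)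
  have n1 : V 165 ≠ 1 := by
    rw [← V_zero]
    exact hne _ _ (by norm_num) (by norm_num) (by norm_num)
  have n2 : V 873 ≠ 1 := by
    rw [← V_zero]
    exact hne _ _ (by norm_num) (by norm_num) (by norm_num)
  have n3 : V 873 ≠ V 165 := hne _ _ (by norm_num) (by norm_num) (by norm_num)
  obtain ⟨w, b⟩ := oct_Z.exists_bas' hZ1 n1 hZ2 n2 n3
  obtain ⟨w', b'⟩ := oct_Z.exists_bas' hu hu1 hv hv1 huv.symm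
  obtain ⟨x, hx, -, h1, h2, -⟩ := full_J.bas oct_Z b b'
  have hn : Cfsg.Agent.J4.TrioAll.K.map phi ≤
      Subgroup.normalizer (Cfsg.Agent.J4.Invol.EJ : Set 𝒢) :=
    (Subgroup.map_le_range phi _).trans phi_norm
  obtain ⟨e, he, _, ⟨k, hk, rfl⟩, rfl⟩ := Cfsg.Agent.H858.Abs.exists_mul_of_mem_sup hn (J_le_X0 hx)
  have key : ∀ z ∈ Z, e * phi k * z * (e * phi k)⁻¹ = phi k * z * (phi k)⁻¹ := by
    intro z hz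
    have h3 : phi k * z * (phi k)⁻¹ ∈ Cfsg.Agent.J4.Invol.EJ :=
      (Subgroup.mem_normalizer_iff.1 (phi_norm ⟨k, rfl⟩) z).1 (Z_le_EJ hz)
    have h4 := EJ_comm' he h3
    calc e * phi k * z * (e * phi k)⁻¹ = e * (phi k * z * (phi k)⁻¹) * e⁻¹ := by group
      _ = _ := by rw [h4]; group
  refine ⟨k, hk, ?_, ?_⟩
  · rw [← key _ hZ1]; exact h1
  · rw [← key _ hZ2]; exact h2

/-- **two sextets refining a trio determine it** -/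
theorem line_unique {m : M24} {u v u' v' : 𝒢} (hu : u ∈ Z) (hv : v ∈ Z) (hu1 : u ≠ 1)
    (hv1 : v ≠ 1) (huv : u ≠ v) (hu' : u' ∈ Z) (hv' : v' ∈ Z)
    (h1 : phi m * u' * (phi m)⁻¹ = u) (h2 : phi m * v' * (phi m)⁻¹ = v) :
    m ∈ Cfsg.Agent.J4.TrioAll.K := by
  obtain ⟨k, hk, ku, kv⟩ := exists_K hu hv hu1 hv1 huv
  obtain ⟨k', hk', ku', kv'⟩ := exists_K hu' hv' (by
    rintro rfl
    apply hu1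
    rw [← h1]; group) (by
    rintro rfl
    apply hv1
    rw [← h2]; group) (by
    rintro rfl
    exact huv (h1.symm.trans h2))
  have h3 : k⁻¹ * (m * k') ∈ St 165 ⊓ St 873 := by
    rw [Subgroup.mem_inf]
    constructor
    · apply mem_St_of
      rw [ku, map_mul]
      rw [← h1, ← ku']
      group
    · apply mem_St_of
      rw [kv, map_mul]
      rw [← h2, ← kv']
      group
  have h4 := St2_le h3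
  have e : m = k * (k⁻¹ * (m * k')) * k'⁻¹ := by group
  rw [e]
  exact Subgroup.mul_mem _ (Subgroup.mul_mem _ hk h4) (Subgroup.inv_mem _ hk')

end Cfsg.Agent.H825.JM
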