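import Cfsg.Agent.H860.JM.Defs
import Cfsg.Agent.H825.JM.Sextets

/-!
# The lines of the 2-local geometry of `J4`: (F6)

`f6`: (F6) of `Cfsg.Agent.H860.JM.Geom`, from (F5).
-/

set_option autoImplicit false

open Cfsg

namespace Cfsg.Agent.H825.JM

open Cfsg.Agent.Lib Cfsg.Agent.Lib.F2MatGroup
open Cfsg.Agent.J4.Rep112 Cfsg.Agent.J4.Pres Cfsg.Agent.J4.M24Hom Cfsg.Agent.J4.Nodes
open Cfsg.Agent.J4.Beta Cfsg.Agent.J4.Classes Cfsg.Agent.J4.ClassesData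
open Cfsg.Agent.J4.NonConj Cfsg.Agent.J4.NonConjData Cfsg.Agent.J4.ClassesAbs
open Cfsg.Agent.H858.VK Cfsg.Agent.H858.Data Cfsg.Agent.H858.Elem Cfsg.Agent.H858.Pent
open Cfsg.Agent.H858.Loc7 Cfsg.Agent.H858.Loc5 Cfsg.Agent.H858.NormL Cfsg.Agent.StdL2.G23Aut
open Cfsg.Agent.H860.JM

/-- the group `Spor.J4` -/
local notation "𝒢" => Cfsg.Spor.J4

/-- the group `2^11` -/
local notation "𝓔" => Cfsg.Agent.J4.Invol.EJ

/-! ### Conjugation of subgroups -/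

section conj

variable {G : Type*} [Group G]

theorem mem_cj {g x : G} {H : Subgroup G} : x ∈ cj g H ↔ g⁻¹ * x * g ∈ H := by
  constructor
  · rintro ⟨y, hy, rfl⟩
    have e : g⁻¹ * (g * y * g⁻¹) * g = y := by group
    show g⁻¹ * (g * y * g⁻¹) * g ∈ H
    rw [e]
    exact hy
  · intro h
    refine ⟨_, h, ?_⟩
    show g * (g⁻¹ * x * g) * g⁻¹ = x
    group

theorem cj_cj (g h : G) (H : Subgroup G) : cj g (cj h H) = cj (g * h) H := by
  ext x
  rw [mem_cj, mem_cj, mem_cj]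
  have e : h⁻¹ * (g⁻¹ * x * g) * h = (g * h)⁻¹ * x * (g * h) := by group
  rw [e]

theorem cj_one (H : Subgroup G) : cj 1 H = H := by
  ext x
  rw [mem_cj]
  simp

theorem cj_inv_cj (g : G) (H : Subgroup G) : cj g⁻¹ (cj g H) = H := by
  rw [cj_cj, inv_mul_cancel, cj_one]

theorem cj_cj_inv (g : G) (H : Subgroup G) : cj g (cj g⁻¹ H) = H := by
  rw [cj_cj, mul_inv_cancel, cj_one]

theorem cj_mono {g : G} {H K : Subgroup G} (h : H ≤ K) : cj g H ≤ cj g K :=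
  Subgroup.map_mono h

theorem cj_le_iff {g : G} {H K : Subgroup G} : cj g H ≤ K ↔ H ≤ cj g⁻¹ K := by
  constructor
  · intro h
    rw [← cj_inv_cj g H]
    exact cj_mono h
  · intro h
    rw [← cj_cj_inv g K]
    exact cj_mono h

theorem cj_inj {g : G} {H K : Subgroup G} (h : cj g H = cj g K) : H = K := by
  rw [← cj_inv_cj g H, h, cj_inv_cj]

theorem cj_eq_iff {g : G} {H : Subgroup G} : cj g H = H ↔ g ∈ Subgroup.normalizer (H : Set G) := by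
  rw [Subgroup.mem_normalizer_iff]
  constructor
  · intro h x
    constructor
    · intro hx
      rw [← h, mem_cj]
      have e : g⁻¹ * (g * x * g⁻¹) * g = x := by group
      rw [e]
      exact hx
    · intro hx
      rw [← h, mem_cj] at hx
      have e : g⁻¹ * (g * x * g⁻¹) * g = x := by group
      rwa [e] at hx
  · intro h
    ext x
    rw [mem_cj, h]
    have e : g * (g⁻¹ * x * g) * g⁻¹ = x := by group
    rw [e]

theorem card_cj (g : G) (H : Subgroup G) : Nat.card (cj g H) = Nat.card H :=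
  Subgroup.card_map_of_injective (MulAut.conj g).injective

/-- `|A| |B| ≤ |A ∩ B| |Q|` for subgroups of `Q` -/
theorem card_mul_card_le [Finite G] {A B Q : Subgroup G} (hA : A ≤ Q) (hB : B ≤ Q) :
    Nat.card A * Nat.card B ≤ Nat.card (A ⊓ B : Subgroup G) * Nat.card Q := by
  have h1 : A.relIndex B ≤ A.relIndex Q :=
    Subgroup.relIndex_le_of_le_right hB (Subgroup.index_ne_zero_of_finite)
  have h2 : Nat.card (A ⊓ B : Subgroup G) * A.relIndex B = Nat.card B := by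
    have h := (A.subgroupOf B).card_mul_index
    rw [card_inf_eq] at h
    exact h
  have h3 : Nat.card A * A.relIndex Q = Nat.card Q := by
    have h := (A.subgroupOf Q).card_mul_index
    rw [Nat.card_congr (Subgroup.subgroupOfEquivOfLe hA).toEquiv] at h
    exact h
  rw [← h2, ← h3]
  calc Nat.card A * (Nat.card (A ⊓ B : Subgroup G) * A.relIndex B)
      = Nat.card (A ⊓ B : Subgroup G) * (Nat.card A * A.relIndex B) := by ring
    _ ≤ Nat.card (A ⊓ B : Subgroup G) * (Nat.card A * A.relIndex Q) :=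
      Nat.mul_le_mul_left _ (Nat.mul_le_mul_left _ h1)

/-- the number of conjugates -/
theorem ncard_conj [Finite G] (N H : Subgroup G) :
    {P | ∃ n ∈ N, P = cj n H}.ncard = (Subgroup.normalizer (H : Set G)).relIndex N := by
  set S : Set (Subgroup G) := {P | ∃ n ∈ N, P = cj n H} with hS
  let f : N ⧸ (Subgroup.normalizer (H : Set G)).subgroupOf N → S :=
    Quotient.lift (fun n : N => (⟨cj (n : G) H, n, n.2, rfl⟩ : S)) (by
      intro a b hab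
      have h1 : a⁻¹ * b ∈ (Subgroup.normalizer (H : Set G)).subgroupOf N :=
        QuotientGroup.leftRel_apply.1 hab
      rw [Subgroup.mem_subgroupOf, ← cj_eq_iff] at h1
      apply Subtype.ext
      show cj (a : G) H = cj (b : G) H
      have h2 : cj (a : G) (cj ((a⁻¹ * b : N) : G) H) = cj (a : G) H := by rw [h1]
      rw [cj_cj] at h2
      rw [← h2]
      congr 2
      show (a : G) * ((a : G)⁻¹ * b) = b
      group)
  have hf : Function.Bijective f := by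
    constructor
    · intro p q
      induction p using QuotientGroup.induction_on with
      | H a =>
      induction q using QuotientGroup.induction_on with
      | H b =>
      intro h
      have h1 : cj (a : G) H = cj (b : G) H := congrArg Subtype.val h
      rw [QuotientGroup.eq, Subgroup.mem_subgroupOf, ← cj_eq_iff]
      show cj ((a : G)⁻¹ * b) H = H
      rw [← cj_cj, ← h1, cj_inv_cj]
    · rintro ⟨P, n, hn, rfl⟩
      exact ⟨QuotientGroup.mk ⟨n, hn⟩, rfl⟩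
  show S.ncard = _
  rw [← Nat.card_coe_set_eq, ← Nat.card_congr (Equiv.ofBijective f hf)]
  rfl

end conj

/-! ### The normalizer of `2^11` -/

theorem EJ_sq' {a : 𝒢} (ha : a ∈ 𝓔) : a * a = 1 := Cfsg.Agent.J4.Invol.EJ_sq rho_injective a ha

theorem V_conj_d : ∃ m : M24, V 1010 = phi m * Cfsg.Agent.J4.Invol.d * (phi m)⁻¹ := by
  have h1 : tget arr 11 (tget pos 11 1010) = 1010 := by decide +kernel
  have h2 : tget pos 11 1010 < 2047 := by decide +kernel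
  have h3 : ¬ tget pos 11 1010 < 1771 := by decide +kernel
  obtain ⟨m, hm⟩ := Cfsg.Agent.J4.Invol.conj_arr hyp _ h2
  rw [h1, if_neg h3] at hm
  refine ⟨m, rho_injective ?_⟩
  rw [map_mul, map_mul, map_inv, rho_V, Cfsg.Agent.J4.Invol.rho_d]
  exact hm

theorem tJ_eq : Cfsg.Agent.H440.J4P.Mats.tJ = V 1010 := by
  apply rho_injective
  rw [rho_V]
  exact Cfsg.Agent.H440.J4P.Mats.rho_eJ 1010

theorem EJ_le_B : 𝓔 ≤ Cfsg.Agent.H858.FixJ4.B := fun e he =>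
  mem_B.2 ⟨e, he, 1, by rw [map_one, mul_one]⟩

theorem phi_mem_B (m : M24) : phi m ∈ Cfsg.Agent.H858.FixJ4.B :=
  mem_B.2 ⟨1, Subgroup.one_mem _, m, by rw [one_mul]⟩

/-- the normalizer of `2^11` is `2^11 : M24` -/
theorem normalizer_EJ : Subgroup.normalizer (𝓔 : Set 𝒢) = Cfsg.Agent.H858.FixJ4.B := by
  apply le_antisymm
  · intro x hx
    obtain ⟨m0, hm0⟩ := V_conj_d
    have h1 : x * V 1010 * x⁻¹ ∈ 𝓔 := (Subgroup.mem_normalizer_iff.1 hx _).1 (V_mem _)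
    have h2 : x * V 1010 * x⁻¹ ≠ 1 := by
      intro h
      have h3 : V 1010 = V 0 := by
        rw [V_zero]
        calc V 1010 = x⁻¹ * (x * V 1010 * x⁻¹) * x := by group
          _ = 1 := by rw [h]; group
      exact absurd (V_inj (by norm_num) (by norm_num) h3) (by norm_num)
    have h3 : ∃ m : M24, x * V 1010 * x⁻¹ = phi m * Cfsg.Agent.J4.Invol.d * (phi m)⁻¹ := by
      obtain ⟨m, hm | hm⟩ := Cfsg.Agent.J4.Invol.EJ_cases rho_injective _ h1 h2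
      · exfalso
        apply Cfsg.Agent.J4.Invol.not_isConj_s_d
        rw [isConj_iff]
        refine ⟨(x * phi m0)⁻¹ * phi m, ?_⟩
        have e : (x * phi m0)⁻¹ * phi m * Cfsg.Agent.J4.Invol.s * ((x * phi m0)⁻¹ * phi m)⁻¹ =
            (x * phi m0)⁻¹ * (phi m * Cfsg.Agent.J4.Invol.s * (phi m)⁻¹) * (x * phi m0) := by
          group
        rw [e, ← hm, hm0]
        group
      · exact ⟨m, hm⟩
    obtain ⟨m, hm⟩ := h3
    have h4 : (phi (m * m0⁻¹))⁻¹ * x * V 1010 = V 1010 * ((phi (m * m0⁻¹))⁻¹ * x) := by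
      have e : x * V 1010 = x * V 1010 * x⁻¹ * x := by group
      rw [mul_assoc, e, hm, hm0, map_mul, map_inv]
      group
    rw [← tJ_eq] at h4
    obtain ⟨v, -, k, -, hk⟩ := Cfsg.Agent.H440.J4P.Cent.cent_t h4
    have e : x = phi (m * m0⁻¹) * (Cfsg.Agent.H440.J4P.Mats.eJ v * phi k) := by
      rw [← hk]; group
    rw [e]
    exact Subgroup.mul_mem _ (phi_mem_B _) (Subgroup.mul_mem _
      (EJ_le_B (Cfsg.Agent.H440.J4P.Mats.eJ_mem v)) (phi_mem_B _))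
  · intro x hx
    obtain ⟨e, he, k, rfl⟩ := mem_B.1 hx
    exact Subgroup.mul_mem _ (Subgroup.le_normalizer he) (phi_norm ⟨k, rfl⟩)

theorem t_notMem_B : (t : 𝒢) ∉ Cfsg.Agent.H858.FixJ4.B := by
  intro ht
  have h1 : Cfsg.Agent.H858.FixJ4.S 1 = ⊤ := by
    rw [eq_top_iff]
    intro u _
    rw [Cfsg.Agent.H858.FixJ4.mem_S]
    have h2 : Cfsg.Agent.H858.FixJ4.r 1 = t := mul_one _
    rw [h2]
    exact Subgroup.mul_mem _ (Subgroup.mul_mem _ ht (phi_mem_B u)) (Subgroup.inv_mem _ ht)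
  have h2 := Cfsg.Agent.H858.FixJ4.card_S 1
  rw [h1, Subgroup.card_top, Cfsg.Agent.H858.FixJ4.card_M24] at h2
  have h3 : Cfsg.Agent.H858.FixJ4.so ((1 : Fin 20) : ℕ) = 64512 := rfl
  rw [h3] at h2
  exact absurd h2 (by norm_num)

/-! ### The points containing `Z` -/

theorem hs : Nat.card (Subgroup.centralizer ({Cfsg.Agent.J4.Invol.s} : Set 𝒢)) = 21799895040 :=
  Cfsg.Agent.H440.J4P.Cent.card_cent_s

theorem card_CZ : Nat.card (Subgroup.centralizer (Z : Set 𝒢)) = 3932160 := by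
  have h1 := card_NZ
  rw [card_NZ_eq hs] at h1
  omega

theorem t_NZ : (t : 𝒢) ∈ Subgroup.normalizer (Z : Set 𝒢) :=
  NL_le_NZ t_NL

theorem X0_le_NZ : X0 ≤ Subgroup.normalizer (Z : Set 𝒢) :=
  (X0_le_W.trans W_le).trans NL_le_NZ

theorem X0_le_B : X0 ≤ Subgroup.normalizer (𝓔 : Set 𝒢) := by
  unfold X0
  apply sup_le Subgroup.le_normalizer
  rintro _ ⟨k, -, rfl⟩
  exact phi_norm ⟨k, rfl⟩

/-- exactly five points are conjugate to `2^11` under the normalizer of `Z` -/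
theorem ncard_five :
    {P | ∃ n ∈ Subgroup.normalizer (Z : Set 𝒢), P = cj n 𝓔}.ncard = 5 := by
  rw [ncard_conj]
  set N : Subgroup 𝒢 := Subgroup.normalizer (Z : Set 𝒢) with hN
  set E : Subgroup 𝒢 := Subgroup.normalizer (𝓔 : Set 𝒢) with hE
  have h1 : X0.relIndex N = 5 := by
    have h := (X0.subgroupOf N).card_mul_index
    rw [Nat.card_congr (Subgroup.subgroupOfEquivOfLe X0_le_NZ).toEquiv, card_X0] at h
    have h' : Nat.card N = 660602880 := card_NZ_eq hs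
    rw [h'] at h
    have h2 : (X0.subgroupOf N).index = 5 := by omega
    exact h2
  have h2 : E.relIndex N ∣ X0.relIndex N := Subgroup.relIndex_dvd_of_le_left N X0_le_B
  rw [h1] at h2
  rcases (Nat.dvd_prime (by norm_num)).1 h2 with h | h
  · exfalso
    rw [Subgroup.relIndex_eq_one] at h
    have h3 := h t_NZ
    rw [hE, normalizer_EJ] at h3
    exact t_notMem_B h3
  · exact h

theorem EJ_le_CZ : 𝓔 ≤ Subgroup.centralizer (Z : Set 𝒢) := by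
  intro x hx
  obtain ⟨v, -, rfl⟩ := Cfsg.Agent.H858.Data.mem_EJ.1 hx
  exact V_cent v

theorem pt_comm {g a b : 𝒢} (ha : a ∈ cj g 𝓔) (hb : b ∈ cj g 𝓔) : a * b = b * a := by
  rw [mem_cj] at ha hb
  have h := EJ_comm' ha hb
  calc a * b = g * ((g⁻¹ * a * g) * (g⁻¹ * b * g)) * g⁻¹ := by group
    _ = g * ((g⁻¹ * b * g) * (g⁻¹ * a * g)) * g⁻¹ := by rw [h]
    _ = b * a := by group

theorem card_pt (g : 𝒢) : Nat.card (cj g 𝓔) = 2 ^ 11 := by
  rw [card_cj, Cfsg.Agent.J4.Invol.card_EJ rho_injective]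

/-- two different points have at most 8 common elements -/
theorem card_inf_le (h5 : F5 geo) {g h : 𝒢} (hne : cj g 𝓔 ≠ cj h 𝓔) :
    Nat.card (cj g 𝓔 ⊓ cj h 𝓔 : Subgroup 𝒢) ≤ 8 := by
  rcases h5 _ _ ⟨g, rfl⟩ ⟨h, rfl⟩ hne with h1 | ⟨z, -, h1⟩ | ⟨k, h1⟩
  · rw [h1, Subgroup.card_bot]
    norm_num
  · have h2 : ((cj g 𝓔 ⊓ cj h 𝓔 : Subgroup 𝒢) : Set 𝒢) ⊆ {1, z} := fun x hx => (h1 x).1 hx
    have h3 := Set.ncard_le_ncard h2 (Set.toFinite _)
    have h4 : ({1, z} : Set 𝒢).ncard ≤ 2 := by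
      have h := Set.ncard_insert_le (1 : 𝒢) {z}
      rwa [Set.ncard_singleton] at h
    have h5 : ((cj g 𝓔 ⊓ cj h 𝓔 : Subgroup 𝒢) : Set 𝒢).ncard =
      Nat.card (cj g 𝓔 ⊓ cj h 𝓔 : Subgroup 𝒢) := rfl
    omega
  · rw [h1, card_cj, card_Z]

/-- a subgroup of order `2^k` of a group of order `2^18 * 15` -/
theorem two_group_le {H : Type*} [Group H] [Finite H] (hH : Nat.card H = 3932160)
    {Q : Subgroup H} (hQ : IsPGroup 2 Q) : Nat.card Q ≤ 2 ^ 18 := by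
  have : Fact (Nat.Prime 2) := ⟨by norm_num⟩
  obtain ⟨k, hk⟩ := IsPGroup.iff_card.1 hQ
  have h1 : Nat.card Q ∣ 2 ^ 18 * 15 := by
    have h := Q.card_subgroup_dvd_card
    rw [hH] at h
    exact h
  rw [hk] at h1 ⊢
  have h2 : Nat.Coprime (2 ^ k) 15 := Nat.Coprime.pow_left k (by norm_num)
  exact Nat.le_of_dvd (by norm_num) (h2.dvd_of_dvd_mul_right h1)

/-- the points containing `Z` are conjugate under `C(Z)` -/
theorem exists_cent (h5 : F5 geo) {g : 𝒢} (hZ : Z ≤ cj g 𝓔) :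
    ∃ c ∈ Subgroup.centralizer (Z : Set 𝒢), cj g 𝓔 = cj c 𝓔 := by
  have : Fact (Nat.Prime 2) := ⟨by norm_num⟩
  set C : Subgroup 𝒢 := Subgroup.centralizer (Z : Set 𝒢) with hC
  have hPC : cj g 𝓔 ≤ C := by
    intro x hx
    rw [hC, Subgroup.mem_centralizer_iff]
    intro z hz
    exact pt_comm (hZ hz) hx
  have hE2 : IsPGroup 2 (Subgroup.subgroupOf 𝓔 C) :=
    isPGroup_EJ.of_equiv (Subgroup.subgroupOfEquivOfLe EJ_le_CZ).symm
  have hP2 : IsPGroup 2 ((cj g 𝓔).subgroupOf C) := by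
    have h1 : IsPGroup 2 (cj g 𝓔) := isPGroup_EJ.map _
    exact h1.of_equiv (Subgroup.subgroupOfEquivOfLe hPC).symm
  obtain ⟨Q, hQ⟩ := hE2.exists_le_sylow
  obtain ⟨R, hR⟩ := hP2.exists_le_sylow
  obtain ⟨c, hc⟩ := MulAction.exists_smul_eq C R Q
  have hQ1 : 𝓔 ≤ (Q : Subgroup C).map C.subtype := by
    intro x hx
    exact ⟨⟨x, EJ_le_CZ hx⟩, hQ (Subgroup.mem_subgroupOf.2 hx), rfl⟩
  have hQ2 : cj (c : 𝒢) (cj g 𝓔) ≤ (Q : Subgroup C).map C.subtype := by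
    rintro _ ⟨x, hx, rfl⟩
    have h1 : (⟨x, hPC hx⟩ : C) ∈ (R : Subgroup C) := hR (Subgroup.mem_subgroupOf.2 hx)
    have h2 : c * ⟨x, hPC hx⟩ * c⁻¹ ∈ (Q : Subgroup C) := by
      rw [← hc]
      exact ⟨_, h1, rfl⟩
    exact ⟨_, h2, rfl⟩
  have hQ3 : Nat.card ((Q : Subgroup C).map C.subtype) ≤ 2 ^ 18 := by
    rw [Subgroup.card_map_of_injective C.subtype_injective]
    exact two_group_le card_CZ Q.isPGroup'
  refine ⟨(c : 𝒢)⁻¹, C.inv_mem c.2, ?_⟩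
  by_contra hne
  have hne' : cj (1 : 𝒢) 𝓔 ≠ cj ((c : 𝒢) * g) 𝓔 := by
    intro h
    apply hne
    rw [cj_one, ← cj_cj] at h
    conv_rhs => rw [h]
    rw [cj_inv_cj]
  have h1 := card_inf_le h5 hne'
  rw [cj_one, ← cj_cj] at h1
  have h2 := card_mul_card_le hQ1 hQ2
  rw [card_cj, card_cj, Cfsg.Agent.J4.Invol.card_EJ rho_injective] at h2
  have h3 := Nat.mul_le_mul h1 hQ3
  omega

theorem five_Z (h5 : F5 geo) : {P | geo.Pt P ∧ Z ≤ P}.ncard = 5 := by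
  rw [← ncard_five]
  congr 1
  ext P
  constructor
  · rintro ⟨⟨g, rfl⟩, hZ⟩
    obtain ⟨c, hc, h⟩ := exists_cent h5 hZ
    exact ⟨c, Subgroup.centralizer_le_normalizer (Z : Set 𝒢) hc, h⟩
  · rintro ⟨n, hn, rfl⟩
    refine ⟨⟨n, rfl⟩, ?_⟩
    rw [← cj_eq_iff] at hn
    rw [← hn]
    exact cj_mono Z_le_EJ

/-! ### Lines in `2^11` -/

/-- a line in `2^11` is conjugate to `Z` under `M24` -/
theorem line_EJ (h5 : F5 geo) {g : 𝒢} (h : cj g Z ≤ 𝓔) : ∃ m : M24, cj g Z = cj (phi m) Z := by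
  rw [cj_le_iff] at h
  obtain ⟨c, hc, h1⟩ := exists_cent h5 h
  have h2 : g * c ∈ Subgroup.normalizer (𝓔 : Set 𝒢) := by
    rw [← cj_eq_iff, ← cj_cj, ← h1, cj_cj_inv]
  rw [normalizer_EJ] at h2
  obtain ⟨e, he, m, hm⟩ := mem_B.1 h2
  have h3 : cj c Z = Z := cj_eq_iff.2 (Subgroup.centralizer_le_normalizer (Z : Set 𝒢) hc)
  have h4 : cj g Z = cj e (cj (phi m) Z) := by
    rw [cj_cj, ← hm, ← cj_cj, h3]
  have h5 : cj (phi m) Z ≤ 𝓔 := by
    have h6 : cj (phi m) 𝓔 = 𝓔 := cj_eq_iff.2 (phi_norm ⟨m, rfl⟩)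
    rw [← h6]
    exact cj_mono Z_le_EJ
  refine ⟨m, ?_⟩
  rw [h4]
  ext x
  constructor
  · rintro ⟨y, hy, rfl⟩
    have h6 := EJ_comm' he (h5 hy)
    show e * y * e⁻¹ ∈ _
    rw [h6, mul_inv_cancel_right]
    exact hy
  · intro hx
    refine ⟨x, hx, ?_⟩
    show e * x * e⁻¹ = x
    rw [EJ_comm' he (h5 hx), mul_inv_cancel_right]

/-- a line in `2^11` sharing two nontrivial elements with `Z` -/
theorem uniq_EJ (h5 : F5 geo) {g : 𝒢} (h : cj g Z ≤ 𝓔) {u v : 𝒢} (hu1 : u ≠ 1) (hv1 : v ≠ 1)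
    (huv : u ≠ v) (hu : u ∈ Z) (hv : v ∈ Z) (hu' : u ∈ cj g Z) (hv' : v ∈ cj g Z) :
    cj g Z = Z := by
  obtain ⟨m, hm⟩ := line_EJ h5 h
  rw [hm] at hu' hv' ⊢
  obtain ⟨u', hu2, hu3⟩ := hu'
  obtain ⟨v', hv2, hv3⟩ := hv'
  exact cj_eq_iff.2 (K_NZ (line_unique hu hv hu1 hv1 huv hu2 hv2 hu3 hv3))

/-- a point sharing two nontrivial elements with `Z` -/
theorem le_Z (h5 : F5 geo) {g : 𝒢} {u v : 𝒢} (hu1 : u ≠ 1) (hv1 : v ≠ 1)
    (huv : u ≠ v) (hu : u ∈ Z) (hv : v ∈ Z) (hu' : u ∈ cj g 𝓔) (hv' : v ∈ cj g 𝓔) :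
    Z ≤ cj g 𝓔 := by
  by_cases hne : cj (1 : 𝒢) 𝓔 = cj g 𝓔
  · rw [← hne, cj_one]
    exact Z_le_EJ
  · have hu2 : u ∈ cj (1 : 𝒢) 𝓔 ⊓ cj g 𝓔 := by
      rw [cj_one]
      exact Subgroup.mem_inf.2 ⟨Z_le_EJ hu, hu'⟩
    have hv2 : v ∈ cj (1 : 𝒢) 𝓔 ⊓ cj g 𝓔 := by
      rw [cj_one]
      exact Subgroup.mem_inf.2 ⟨Z_le_EJ hv, hv'⟩
    rcases h5 _ _ ⟨1, rfl⟩ ⟨g, rfl⟩ hne with h1 | ⟨z, -, h1⟩ | ⟨k, h1⟩
    · rw [h1, Subgroup.mem_bot] at hu2
      exact absurd hu2 hu1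
    · rw [h1] at hu2 hv2
      rcases hu2 with h | h
      · exact absurd h hu1
      · rcases hv2 with h' | h'
        · exact absurd h' hv1
        · exact absurd (h.trans h'.symm) huv
    · rw [h1] at hu2 hv2
      have h2 : cj k Z ≤ 𝓔 := by
        rw [← h1, cj_one]
        exact inf_le_left
      have h3 := uniq_EJ h5 h2 hu1 hv1 huv hu hv hu2 hv2
      rw [← h3, ← h1]
      exact inf_le_right

theorem le_aux (h5 : F5 geo) {D P : Subgroup 𝒢} (hD : geo.Ln D) (hP : geo.Pt P) {u v : 𝒢}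
    (hu1 : u ≠ 1) (hv1 : v ≠ 1) (huv : u ≠ v) (hu : u ∈ D) (hv : v ∈ D) (hu' : u ∈ P)
    (hv' : v ∈ P) : D ≤ P := by
  obtain ⟨g, rfl⟩ := hD
  obtain ⟨h, rfl⟩ := hP
  rw [cj_le_iff, cj_cj]
  rw [mem_cj] at hu hv
  refine le_Z h5 (u := g⁻¹ * u * g) (v := g⁻¹ * v * g) ?_ ?_ ?_ hu hv ?_ ?_
  · intro h1
    apply hu1
    calc u = g * (g⁻¹ * u * g) * g⁻¹ := by group
      _ = 1 := by rw [h1]; group
  · intro h1
    apply hv1
    calc v = g * (g⁻¹ * v * g) * g⁻¹ := by group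
      _ = 1 := by rw [h1]; group
  · intro h1
    apply huv
    calc u = g * (g⁻¹ * u * g) * g⁻¹ := by group
      _ = g * (g⁻¹ * v * g) * g⁻¹ := by rw [h1]
      _ = v := by group
  · rw [mem_cj] at hu' ⊢
    have e : (g⁻¹ * h)⁻¹ * (g⁻¹ * u * g) * (g⁻¹ * h) = h⁻¹ * u * h := by group
    rw [e]
    exact hu'
  · rw [mem_cj] at hv' ⊢
    have e : (g⁻¹ * h)⁻¹ * (g⁻¹ * v * g) * (g⁻¹ * h) = h⁻¹ * v * h := by group
    rw [e]
    exact hv'

theorem uniq_aux (h5 : F5 geo) {D D' : Subgroup 𝒢} (hD : geo.Ln D) (hD' : geo.Ln D') {u v : 𝒢}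
    (hu1 : u ≠ 1) (hv1 : v ≠ 1) (huv : u ≠ v) (hu : u ∈ D) (hv : v ∈ D) (hu' : u ∈ D')
    (hv' : v ∈ D') : D = D' := by
  obtain ⟨h, rfl⟩ := id hD'
  have hP : cj h Z ≤ cj h 𝓔 := cj_mono Z_le_EJ
  have h1 : D ≤ cj h 𝓔 := le_aux h5 hD ⟨h, rfl⟩ hu1 hv1 huv hu hv (hP hu') (hP hv')
  obtain ⟨g, rfl⟩ := hD
  have h2 : cj (h⁻¹ * g) Z ≤ 𝓔 := by
    rw [← cj_cj]
    have h3 := cj_mono (g := h⁻¹) h1
    rwa [cj_inv_cj] at h3
  have h3 : cj (h⁻¹ * g) Z = Z := by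
    rw [mem_cj] at hu hv hu' hv'
    refine uniq_EJ h5 h2 (u := h⁻¹ * u * h) (v := h⁻¹ * v * h) ?_ ?_ ?_ hu' hv' ?_ ?_
    · intro h3
      apply hu1
      calc u = h * (h⁻¹ * u * h) * h⁻¹ := by group
        _ = 1 := by rw [h3]; group
    · intro h3
      apply hv1
      calc v = h * (h⁻¹ * v * h) * h⁻¹ := by group
        _ = 1 := by rw [h3]; group
    · intro h3
      apply huv
      calc u = h * (h⁻¹ * u * h) * h⁻¹ := by group
        _ = h * (h⁻¹ * v * h) * h⁻¹ := by rw [h3]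
        _ = v := by group
    · rw [mem_cj]
      have e : (h⁻¹ * g)⁻¹ * (h⁻¹ * u * h) * (h⁻¹ * g) = g⁻¹ * u * g := by group
      rw [e]
      exact hu
    · rw [mem_cj]
      have e : (h⁻¹ * g)⁻¹ * (h⁻¹ * v * h) * (h⁻¹ * g) = g⁻¹ * v * g := by group
      rw [e]
      exact hv
  rw [← cj_cj] at h3
  conv_rhs => rw [← h3]
  rw [cj_cj_inv]

/-! ### (F6) -/

/-- the nontrivial elements of `Z` are in the class of `s` -/
theorem pure_Z {u : 𝒢} (hu : u ∈ Z) (hu1 : u ≠ 1) : IsConj Cfsg.Agent.J4.Invol.s u := by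
  obtain ⟨y, w, b⟩ := oct_Z.exists_bas hu hu1
  have hZ1 : V 165 ∈ Z := V_mem_Z 1 (by decide)
  have n1 : V 165 ≠ 1 := by
    rw [← V_zero]
    intro h
    exact absurd (V_inj (by norm_num) (by norm_num) h) (by norm_num)
  obtain ⟨y', w', b'⟩ := oct_Z.exists_bas hZ1 n1
  obtain ⟨x, -, -, h1, -, -⟩ := full_J.bas oct_Z b' b
  obtain ⟨g, hg⟩ := exists_conj_s
  exact (isConj_iff.2 ⟨g, hg⟩).trans (isConj_iff.2 ⟨x, h1⟩)

/-- **(F6)** -/
theorem f6 (h5 : F5 geo) : F6 geo where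
  card := by
    rintro _ ⟨g, rfl⟩
    rw [card_cj, card_Z]
  pure := by
    rintro _ ⟨g, rfl⟩ u hu hu1
    rw [mem_cj] at hu
    have h1 : IsConj Cfsg.Agent.J4.Invol.s (g⁻¹ * u * g) := pure_Z hu (by
      intro h
      apply hu1
      calc u = g * (g⁻¹ * u * g) * g⁻¹ := by group
        _ = 1 := by rw [h]; group)
    exact h1.trans (isConj_iff.2 ⟨g, by group⟩)
  uniq := fun D D' hD hD' u v hu1 hv1 huv hu hv hu' hv' =>
    uniq_aux h5 hD hD' hu1 hv1 huv hu hv hu' hv'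
  five := by
    rintro _ ⟨g, rfl⟩
    rw [← five_Z h5, ← Set.ncard_image_of_injective {P | geo.Pt P ∧ Z ≤ P}
      (f := fun P => cj g P) (fun _ _ h => cj_inj h)]
    congr 1
    ext P
    constructor
    · rintro ⟨⟨h, rfl⟩, hP⟩
      refine ⟨cj g⁻¹ (cj h 𝓔), ⟨⟨g⁻¹ * h, cj_cj _ _ _⟩, cj_le_iff.1 hP⟩, cj_cj_inv _ _⟩
    · rintro ⟨P', ⟨⟨h, rfl⟩, hP⟩, rfl⟩
      exact ⟨⟨g * h, cj_cj _ _ _⟩, cj_mono hP⟩
  le := fun D P hD hP u v hu1 hv1 huv hu hv hu' hv' =>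
    le_aux h5 hD hP hu1 hv1 huv hu hv hu' hv'

end Cfsg.Agent.H825.JM
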